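import Cfsg.Agent.Lib.MaxCent.Perfect
import Cfsg.Agent.Lib.Solvable.Basic
import Cfsg.Prelude.Def_Transfer

/-!
# Normal subgroups with trivial center all of whose centralizers are maximal
-/

set_option autoImplicit false
set_option linter.style.haveILetI false
set_option linter.unusedSectionVars false

namespace Cfsg.Agent.Lib.MaxCent.Centerless

open Cfsg Cfsg.Agent.Lib.Frobenius.Basic Cfsg.Agent.Lib.Frobenius.Theorem
open Cfsg.Agent.Lib.Frobenius.Normal Cfsg.Agent.Lib.MaxCent.Perfect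
open Cfsg.Agent.Lib.Solvable.Basic

variable {G : Type*} [Group G]

/-- The Frobenius alternative of the statement. -/
def FrobProp (A : Type*) [Group A] : Prop :=
  ∃ (Q K : Subgroup A) (p : ℕ), p.Prime ∧ IsFrobeniusComplement Q ∧ (Nat.card ↥Q).Prime ∧
    K.Normal ∧ (K : Set A) = frobeniusKernel Q ∧ IsElementaryAbelian p K

theorem exists_mul_of_sup_eq_top {S H : Subgroup G} [S.Normal] (h : S ⊔ H = ⊤) (g : G) :
    ∃ s ∈ S, ∃ t ∈ H, s * t = g := by
  have h1 : g ∈ (↑(S ⊔ H) : Set G) := by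
    rw [h]; trivial
  rw [Subgroup.normal_mul] at h1
  obtain ⟨s, hs, t, ht, rfl⟩ := Set.mem_mul.1 h1
  exact ⟨s, hs, t, ht, rfl⟩

theorem sup_eq_top_of_not_le {S H : Subgroup G} (hH : IsCoatom H) (h : ¬ S ≤ H) : S ⊔ H = ⊤ :=
  hH.2 _ (lt_of_le_of_ne le_sup_right (fun h2 => h (le_sup_left.trans h2.ge)))

/-- Minimal non-central-power: a power of `n` outside `C` whose prime power is inside `C`. -/
theorem exists_pow_not_mem_prime_pow_mem [Finite G] (C : Subgroup G) (n : G) (hn : n ∉ C) :
    ∃ k : ℕ, n ^ k ∉ C ∧ ∃ q : ℕ, q.Prime ∧ (n ^ k) ^ q ∈ C := by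
  induction' hm : orderOf n using Nat.strong_induction_on with m ih generalizing n
  have hn1 : n ≠ 1 := fun h => hn (h ▸ C.one_mem)
  have h1 : orderOf n ≠ 1 := by simpa [orderOf_eq_one_iff] using hn1
  have hpos : 0 < orderOf n := orderOf_pos n
  have hq := Nat.minFac_prime h1
  by_cases hnq : n ^ (orderOf n).minFac ∈ C
  · exact ⟨1, by simpa using hn, _, hq, by simpa using hnq⟩
  · have hlt : orderOf (n ^ (orderOf n).minFac) < m := by
      rw [orderOf_pow_of_dvd hq.ne_zero (Nat.minFac_dvd _), hm]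
      rw [← hm]
      exact Nat.div_lt_self hpos hq.one_lt
    obtain ⟨k, hk1, q, hq', hk2⟩ := ih _ hlt _ hnq rfl
    refine ⟨(orderOf n).minFac * k, ?_, q, hq', ?_⟩
    · rwa [pow_mul]
    · rwa [pow_mul]

/-- A commutative minimal normal subgroup has prime exponent. -/
theorem isMinNormal_exponent_of_comm [Finite G] {N : Subgroup G} (hN : IsMinNormal N)
    (hcomm : ∀ x ∈ N, ∀ y ∈ N, x * y = y * x) :
    ∃ p : ℕ, p.Prime ∧ ∀ x ∈ N, x ^ p = 1 := by
  classical
  obtain ⟨hNn, hN1, hmin⟩ := hN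
  have := hNn
  have : Nontrivial N := (Subgroup.nontrivial_iff_ne_bot N).mpr hN1
  obtain ⟨p, hp⟩ : ∃ p, p.Prime ∧ p ∣ Nat.card N := by
    refine ⟨(Nat.card N).minFac, Nat.minFac_prime ?_, Nat.minFac_dvd _⟩
    exact Finite.one_lt_card.ne'
  have : Fact p.Prime := ⟨hp.1⟩
  refine ⟨p, hp.1, ?_⟩
  let S : Subgroup G :=
    { carrier := {x | x ∈ N ∧ x ^ p = 1}
      one_mem' := ⟨N.one_mem, one_pow _⟩
      mul_mem' := by
        rintro a b ⟨ha, ha'⟩ ⟨hb, hb'⟩
        refine ⟨N.mul_mem ha hb, ?_⟩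
        have hc : Commute a b := hcomm a ha b hb
        rw [hc.mul_pow, ha', hb', one_mul]
      inv_mem' := by
        rintro a ⟨ha, ha'⟩
        exact ⟨N.inv_mem ha, by rw [inv_pow, ha', inv_one]⟩ }
  have hSnormal : S.Normal := ⟨by
    rintro x ⟨hx, hx'⟩ g
    refine ⟨hNn.conj_mem x hx g, ?_⟩
    rw [conj_pow, hx', mul_one, mul_inv_cancel]⟩
  have hSle : S ≤ N := fun x hx => hx.1
  obtain ⟨y, hy⟩ := exists_prime_orderOf_dvd_card' p hp.2
  have hS1 : S ≠ ⊥ := by
    intro hb
    have : (y : G) ∈ S := ⟨y.2, by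
      have := pow_orderOf_eq_one y
      rw [hy] at this
      exact_mod_cast congrArg Subtype.val this⟩
    rw [hb, Subgroup.mem_bot] at this
    have hy1 : y = 1 := Subtype.ext this
    rw [hy1, orderOf_one] at hy
    exact hp.1.one_lt.ne hy
  rcases hmin S hSnormal hSle with h | h
  · exact absurd h hS1
  · intro x hx
    rw [← h] at hx
    exact hx.2

/-- A nonabelian minimal normal subgroup inside `N` is impossible. -/
theorem comm_of_isMinNormal [Finite G] {N S : Subgroup G} [N.Normal]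
    (hS : IsMinNormal S) (hSN : S ≤ N) (hC : ∀ r ∈ N, r ≠ 1 → IsCoatom (Y r)) :
    ∀ a ∈ S, ∀ b ∈ S, a * b = b * a := by
  by_contra hnab
  obtain ⟨hSn, hS1, hmin⟩ := id hS
  have := hSn
  have hne : Nontrivial S := (Subgroup.nontrivial_iff_ne_bot S).mpr hS1
  have hcenter : ∀ z : S, (∀ g : S, g * z = z * g) → z = 1 := by
    intro z hz
    have hT : (S ⊓ Subgroup.centralizer (S : Set G)).Normal := inferInstance
    rcases hmin _ hT inf_le_left with h | h
    · have : (z : G) ∈ S ⊓ Subgroup.centralizer (S : Set G) := by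
        refine ⟨z.2, ?_⟩
        show (z : G) ∈ Subgroup.centralizer (S : Set G)
        rw [Subgroup.mem_centralizer_iff]
        intro g hg
        exact congrArg Subtype.val (hz ⟨g, hg⟩)
      rw [h, Subgroup.mem_bot] at this
      exact Subtype.ext this
    · exfalso
      apply hnab
      intro a ha b hb
      have h1 : a ∈ S ⊓ Subgroup.centralizer (S : Set G) := by rw [h]; exact ha
      exact (Subgroup.mem_centralizer_iff.1 h1.2 b hb).symm
  have hperf : commutator S = ⊤ := by
    have h2 : ⁅S, S⁆.Normal := Subgroup.commutator_normal S S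
    have h3 : ⁅S, S⁆ = S := by
      rcases hmin _ h2 (Subgroup.commutator_le_left S S) with h | h
      · exfalso
        apply hnab
        intro x hx y hy
        have h4 := Subgroup.commutator_mem_commutator hx hy
        rw [h, Subgroup.mem_bot, commutatorElement_eq_one_iff_mul_comm] at h4
        exact h4
      · exact h
    apply Subgroup.map_injective S.subtype_injective
    rw [Subgroup.map_subtype_commutator, h3, ← MonoidHom.range_eq_map, Subgroup.range_subtype]
  have hYmem : ∀ (r g : S), g ∈ Y r ↔ (g : G) ∈ Y (r : G) := by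
    intro r g
    rw [mem_Y, mem_Y, Subtype.ext_iff]
    rfl
  have hP : ∀ (r : S) (n : ℕ), r ≠ 1 → r ^ n ≠ 1 → Y r = Y (r ^ n) := by
    intro r n hr hrn
    have hr' : (r : G) ≠ 1 := fun h => hr (Subtype.ext h)
    have hrn' : (r : G) ^ n ≠ 1 := fun h => hrn (Subtype.ext (by simpa using h))
    have hc1 := hC (r : G) (hSN r.2) hr'
    have hc2 := hC ((r : G) ^ n) (N.pow_mem (hSN r.2) n) hrn'
    have heq : Y (r : G) = Y ((r : G) ^ n) :=
      (hc1.le_iff_eq hc2.1 |>.1 (Y_le_Y_pow _ _)).symm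
    ext g
    rw [hYmem, hYmem, heq]
    simp
  have hN : ∀ r : S, r ≠ 1 → Subgroup.normalizer (Y r : Set S) = Y r := by
    intro r hr
    have hr' : (r : G) ≠ 1 := fun h => hr (Subtype.ext h)
    have hc1 := hC (r : G) (hSN r.2) hr'
    set T : Subgroup G := S ⊓ Y (r : G) with hT
    have hle : Y (r : G) ≤ Subgroup.normalizer (T : Set G) := by
      intro c hc
      rw [Subgroup.mem_set_normalizer_iff]
      intro h
      rw [SetLike.mem_coe, SetLike.mem_coe]
      constructor
      · rintro ⟨h1, h2⟩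
        exact ⟨hSn.conj_mem h h1 c, (Y (r : G)).mul_mem ((Y (r : G)).mul_mem hc h2) ((Y (r : G)).inv_mem hc)⟩
      · rintro ⟨h1, h2⟩
        have h3 : h = c⁻¹ * (c * h * c⁻¹) * c := by group
        have h4 := hSn.conj_mem _ h1 c⁻¹
        rw [inv_inv] at h4
        rw [h3]
        exact ⟨h4, (Y (r : G)).mul_mem ((Y (r : G)).mul_mem ((Y (r : G)).inv_mem hc) h2) hc⟩
    have hnt : ¬ Y (r : G) < Subgroup.normalizer (T : Set G) := by
      intro hlt
      have htop := hc1.2 _ hlt
      have hTn : T.Normal := by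
        rw [← Subgroup.normalizer_eq_top_iff]
        exact htop
      rcases hmin T hTn inf_le_left with h | h
      · have : (r : G) ∈ T := ⟨r.2, self_mem_Y _⟩
        rw [h, Subgroup.mem_bot] at this
        exact hr' this
      · apply hr
        apply hcenter
        intro g
        have h1 : (g : G) ∈ T := by rw [h]; exact g.2
        exact Subtype.ext (mem_Y.1 h1.2)
    have heq : Subgroup.normalizer (T : Set G) = Y (r : G) :=
      (eq_of_le_of_not_lt hle hnt).symm
    apply le_antisymm _ Subgroup.le_normalizer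
    intro g hg
    rw [hYmem, ← heq, Subgroup.mem_set_normalizer_iff]
    rw [Subgroup.mem_set_normalizer_iff] at hg
    intro h
    rw [SetLike.mem_coe, SetLike.mem_coe]
    constructor
    · rintro ⟨h1, h2⟩
      have h3 := (hg ⟨h, h1⟩).1 ((hYmem r ⟨h, h1⟩).2 h2)
      have h4 := (hYmem r _).1 h3
      exact ⟨S.mul_mem (S.mul_mem g.2 h1) (S.inv_mem g.2), h4⟩
    · rintro ⟨h1, h2⟩
      have h5 : h ∈ S := by
        have h6 := S.mul_mem (S.mul_mem (S.inv_mem g.2) h1) g.2
        have h7 : (g : G)⁻¹ * (g * h * (g : G)⁻¹) * g = h := by group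
        rwa [h7] at h6
      have h3 := (hg ⟨h, h5⟩).2 ((hYmem r _).2 h2)
      exact ⟨h5, (hYmem r _).1 h3⟩
  exact false_of_perfect hperf hcenter hN hP

/-- The abelian minimal normal subgroup gives the Frobenius structure. -/
theorem frobProp_of_comm [Finite G] {N S : Subgroup G} [N.Normal]
    (hS : IsMinNormal S) (hSN : S ≤ N) (hab : ∀ a ∈ S, ∀ b ∈ S, a * b = b * a)
    (hZ : ∀ r ∈ N, (∀ n ∈ N, r * n = n * r) → r = 1)
    (hC : ∀ r ∈ N, r ≠ 1 → IsCoatom (Y r)) : FrobProp N := by
  classical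
  obtain ⟨hSn, hS1, hmin⟩ := id hS
  have := hSn
  -- dichotomy
  have hdich : ∀ w ∈ N, (∀ s ∈ S, s * w = w * s) ∨ (∀ s ∈ S, s * w = w * s → s = 1) := by
    intro w hw
    by_cases hw1 : w = 1
    · left
      simp [hw1]
    by_cases hle : ∀ s ∈ S, s * w = w * s
    · exact Or.inl hle
    right
    have hnle : ¬ S ≤ Y w := fun h => hle (fun s hs => mem_Y.1 (h hs))
    have hjoin := sup_eq_top_of_not_le (hC w hw hw1) hnle
    set T : Subgroup G := S ⊓ Y w with hT
    have h1 : S ≤ Subgroup.normalizer (T : Set G) := by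
      intro s hs
      rw [Subgroup.mem_set_normalizer_iff]
      intro h
      rw [SetLike.mem_coe, SetLike.mem_coe]
      constructor
      · rintro ⟨h1, h2⟩
        have : s * h * s⁻¹ = h := by
          rw [hab s hs h h1]
          group
        rw [this]
        exact ⟨h1, h2⟩
      · rintro ⟨h1, h2⟩
        have h5 : h ∈ S := by
          have h6 := S.mul_mem (S.mul_mem (S.inv_mem hs) h1) hs
          have h7 : s⁻¹ * (s * h * s⁻¹) * s = h := by group
          rwa [h7] at h6
        have : s * h * s⁻¹ = h := by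
          rw [hab s hs h h5]
          group
        rw [this] at h2
        exact ⟨h5, h2⟩
    have h2 : Y w ≤ Subgroup.normalizer (T : Set G) := by
      intro c hc
      rw [Subgroup.mem_set_normalizer_iff]
      intro h
      rw [SetLike.mem_coe, SetLike.mem_coe]
      constructor
      · rintro ⟨h1, h2⟩
        exact ⟨hSn.conj_mem h h1 c, (Y w).mul_mem ((Y w).mul_mem hc h2) ((Y w).inv_mem hc)⟩
      · rintro ⟨h1, h2⟩
        have h3 : h = c⁻¹ * (c * h * c⁻¹) * c := by group
        have h4 := hSn.conj_mem _ h1 c⁻¹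
        rw [inv_inv] at h4
        rw [h3]
        exact ⟨h4, (Y w).mul_mem ((Y w).mul_mem ((Y w).inv_mem hc) h2) hc⟩
    have hTn : T.Normal := by
      rw [← Subgroup.normalizer_eq_top_iff, eq_top_iff, ← hjoin]
      exact sup_le h1 h2
    rcases hmin T hTn inf_le_left with h | h
    · intro s hs hsw
      have : s ∈ T := ⟨hs, mem_Y.2 hsw⟩
      rw [h, Subgroup.mem_bot] at this
      exact this
    · exfalso
      apply hnle
      rw [← h]
      exact inf_le_right
  -- the element `x`
  obtain ⟨s₀, hs₀, hs₀1⟩ : ∃ s ∈ S, s ≠ 1 := by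
    by_contra hcon
    push Not at hcon
    apply hS1
    rw [eq_bot_iff]
    intro s hs
    exact hcon s hs
  have hn₀ : ∃ n ∈ N, s₀ * n ≠ n * s₀ := by
    by_contra hcon
    push Not at hcon
    exact hs₀1 (hZ s₀ (hSN hs₀) hcon)
  obtain ⟨n₀, hn₀N, hn₀⟩ := hn₀
  have hn₀C : n₀ ∉ Subgroup.centralizer (S : Set G) := by
    intro h
    exact hn₀ (Subgroup.mem_centralizer_iff.1 h s₀ hs₀)
  obtain ⟨k, hk1, q, hq, hk2⟩ := exists_pow_not_mem_prime_pow_mem _ n₀ hn₀C
  set x := n₀ ^ k with hx
  have hxN : x ∈ N := N.pow_mem hn₀N k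
  have hx1 : x ≠ 1 := fun h => hk1 (h ▸ Subgroup.one_mem _)
  have hxS : ¬ ∀ s ∈ S, s * x = x * s := fun h => hk1 (Subgroup.mem_centralizer_iff.2 h)
  have hxS1 : ∀ s ∈ S, s * x = x * s → s = 1 := (hdich x hxN).resolve_left hxS
  have hxC := hC x hxN hx1
  have hnle : ¬ S ≤ Y x := fun h => hxS (fun s hs => mem_Y.1 (h hs))
  have hSH := sup_eq_top_of_not_le hxC hnle
  have hSHd : ∀ s ∈ S, s ∈ Y x → s = 1 := fun s hs h => hxS1 s hs (mem_Y.1 h)
  -- decomposition of `N`
  have hdecN : ∀ n ∈ N, ∃ s ∈ S, ∃ m ∈ N, m ∈ Y x ∧ s * m = n := by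
    intro n hn
    obtain ⟨s, hs, m, hm, rfl⟩ := exists_mul_of_sup_eq_top hSH n
    refine ⟨s, hs, m, ?_, hm, rfl⟩
    have : m = s⁻¹ * (s * m) := by group
    rw [this]
    exact N.mul_mem (N.inv_mem (hSN hs)) hn
  -- `D₀ = 1`
  have hD : ∀ w ∈ N, w ∈ Y x → (∀ s ∈ S, s * w = w * s) → w = 1 := by
    intro w hwN hwH hwS
    set u := x * w with hu
    have huN : u ∈ N := N.mul_mem hxN hwN
    have huH : u ∈ Y x := (Y x).mul_mem (self_mem_Y x) hwH
    have hxw : x * w = w * x := (mem_Y.1 hwH).symm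
    have huS : ¬ ∀ s ∈ S, s * u = u * s := by
      intro h
      apply hxS
      intro s hs
      have h1 := h s hs
      have h2 := hwS s hs
      rw [hu] at h1
      have h3 : s * x * w = x * s * w := by
        calc s * x * w = s * (x * w) := by group
          _ = x * w * s := h1
          _ = x * (w * s) := by group
          _ = x * (s * w) := by rw [h2]
          _ = x * s * w := by group
      exact mul_right_cancel h3
    have hu1 : u ≠ 1 := by
      intro h
      apply huS
      intro s hs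
      simp [h]
    have huS1 := (hdich u huN).resolve_left huS
    have hujoin : S ⊔ Y u = ⊤ :=
      sup_eq_top_of_not_le (hC u huN hu1) (fun h => huS (fun s hs => mem_Y.1 (h hs)))
    have hMu : ∀ m ∈ N, m ∈ Y x → m * u = u * m := by
      intro m hmN hmH
      obtain ⟨s, hs, c, hc, rfl⟩ := exists_mul_of_sup_eq_top hujoin m
      have hcN : c ∈ N := by
        have : c = s⁻¹ * (s * c) := by group
        rw [this]
        exact N.mul_mem (N.inv_mem (hSN hs)) hmN
      obtain ⟨y, hy, m₁, hm₁N, hm₁H, rfl⟩ := hdecN c hcN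
      have hcu : y * m₁ * u = u * (y * m₁) := mem_Y.1 hc
      -- `y⁻¹ (u⁻¹ y u) = m₁ (u⁻¹ m₁ u)⁻¹` lies in `S ⊓ Y x`
      have hS' : y⁻¹ * (u⁻¹ * y * u) ∈ S := by
        refine S.mul_mem (S.inv_mem hy) ?_
        have := hSn.conj_mem y hy u⁻¹
        simpa using this
      have hH' : y⁻¹ * (u⁻¹ * y * u) ∈ Y x := by
        have h1 : y⁻¹ * (u⁻¹ * y * u) = m₁ * (u⁻¹ * m₁⁻¹ * u) := by
          have h2 : u⁻¹ * (y * m₁ * u) = y * m₁ := by
            rw [hcu]
            group
          calc y⁻¹ * (u⁻¹ * y * u) = y⁻¹ * (u⁻¹ * (y * m₁ * u)) * (u⁻¹ * m₁⁻¹ * u) := by group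
            _ = y⁻¹ * (y * m₁) * (u⁻¹ * m₁⁻¹ * u) := by rw [h2]
            _ = m₁ * (u⁻¹ * m₁⁻¹ * u) := by group
        rw [h1]
        exact (Y x).mul_mem hm₁H
          ((Y x).mul_mem ((Y x).mul_mem ((Y x).inv_mem huH) ((Y x).inv_mem hm₁H)) huH)
      have h3 := hSHd _ hS' hH'
      have hy1 : y = 1 := by
        apply huS1 y hy
        have h4 : u⁻¹ * y * u = y := by
          have := eq_of_inv_mul_eq_one h3
          exact this.symm
        calc y * u = u * (u⁻¹ * y * u) := by group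
          _ = u * y := by rw [h4]
      subst hy1
      have hs1 : s = 1 := by
        apply hSHd s hs
        have : s = s * (1 * m₁) * m₁⁻¹ := by group
        rw [this]
        exact (Y x).mul_mem hmH ((Y x).inv_mem hm₁H)
      subst hs1
      simpa using hcu
    -- `w` is central in `N`
    apply hZ w hwN
    intro n hn
    obtain ⟨s, hs, m, hmN, hmH, rfl⟩ := hdecN n hn
    have h1 := hMu m hmN hmH
    have h2 : m * x = x * m := mem_Y.1 hmH
    have h3 : w * m = m * w := by
      apply mul_left_cancel (a := x)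
      calc x * (w * m) = x * w * m := by group
        _ = u * m := rfl
        _ = m * u := h1.symm
        _ = m * x * w := by rw [hu]; group
        _ = x * m * w := by rw [h2]
        _ = x * (m * w) := by group
    have h4 := hwS s hs
    calc w * (s * m) = (w * s) * m := by group
      _ = s * w * m := by rw [h4]
      _ = s * (w * m) := by group
      _ = s * (m * w) := by rw [h3]
      _ = s * m * w := by group
  have hzN : Subgroup.zpowers x ≤ N := by
    rw [Subgroup.zpowers_le]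
    exact hxN
  have hzH : Subgroup.zpowers x ≤ Y x := by
    rw [Subgroup.zpowers_le]
    exact self_mem_Y x
  -- `Y y` normal, for `y ∈ S`
  have hMz : ∀ w ∈ N, w ∈ Y x → w ∈ Subgroup.zpowers x := by
    intro w hwN hwH
    have hyN : s₀ ∈ N := hSN hs₀
    have hYc := hC s₀ hyN hs₀1
    have hSY : S ≤ Y s₀ := fun s hs => mem_Y.2 (hab s hs s₀ hs₀)
    have hxY : x ∉ Y s₀ := by
      intro h
      exact hs₀1 (hxS1 s₀ hs₀ (mem_Y.1 h).symm)
    have hconj : ∀ t : G, (∀ h ∈ Y x, t * h = h * t) → ∀ c ∈ Y s₀, t * c * t⁻¹ ∈ Y s₀ := by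
      intro t ht c hc
      obtain ⟨s, hs, h, hh, rfl⟩ := exists_mul_of_sup_eq_top hSH c
      have hhY : h ∈ Y s₀ := by
        have : h = s⁻¹ * (s * h) := by group
        rw [this]
        exact (Y s₀).mul_mem ((Y s₀).inv_mem (hSY hs)) hc
      have : t * (s * h) * t⁻¹ = (t * s * t⁻¹) * h := by
        calc t * (s * h) * t⁻¹ = (t * s * t⁻¹) * (t * h) * t⁻¹ := by group
          _ = (t * s * t⁻¹) * (h * t) * t⁻¹ := by rw [ht h hh]
          _ = (t * s * t⁻¹) * h := by group
      rw [this]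
      exact (Y s₀).mul_mem (hSY (hSn.conj_mem s hs t)) hhY
    have hxnorm : x ∈ Subgroup.normalizer (Y s₀ : Set G) := by
      rw [Subgroup.mem_set_normalizer_iff]
      intro h
      rw [SetLike.mem_coe, SetLike.mem_coe]
      constructor
      · intro hh
        exact hconj x (fun h hh => (mem_Y.1 hh).symm) h hh
      · intro hh
        have h2 := hconj x⁻¹ (fun h hh => by
          have h3 : h * x = x * h := mem_Y.1 hh
          have : x⁻¹ * h = h * x⁻¹ := by
            rw [inv_mul_eq_iff_eq_mul, ← mul_assoc, ← h3]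
            group
          exact this) _ hh
        have h3 : x⁻¹ * (x * h * x⁻¹) * x⁻¹⁻¹ = h := by group
        rwa [h3] at h2
    have hlt : Y s₀ < Subgroup.normalizer (Y s₀ : Set G) :=
      lt_of_le_of_ne Subgroup.le_normalizer (fun h => hxY (h ▸ hxnorm))
    have hYn : (Y s₀).Normal := by
      rw [← Subgroup.normalizer_eq_top_iff]
      exact hYc.2 _ hlt
    have hjoin : Y s₀ ⊔ Subgroup.zpowers x = ⊤ := by
      apply hYc.2
      apply lt_of_le_of_ne le_sup_left
      intro h
      apply hxY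
      rw [h]
      exact Subgroup.mem_sup_right (Subgroup.mem_zpowers x)
    obtain ⟨c, hc, t, ht, rfl⟩ := exists_mul_of_sup_eq_top hjoin w
    have hcN : c ∈ N := by
      have : c = c * t * t⁻¹ := by group
      rw [this]
      exact N.mul_mem hwN (N.inv_mem (hzN ht))
    have hcH : c ∈ Y x := by
      have : c = c * t * t⁻¹ := by group
      rw [this]
      exact (Y x).mul_mem hwH ((Y x).inv_mem (hzH ht))
    have hc1 : c = 1 := by
      apply hD c hcN hcH
      rcases hdich c hcN with h | h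
      · exact h
      · exact absurd (h s₀ hs₀ (mem_Y.1 hc).symm) hs₀1
    rw [hc1, one_mul]
    exact ht
  have hxq : x ^ q = 1 := by
    apply hD _ (N.pow_mem hxN q) ((Y x).pow_mem (self_mem_Y x) q)
    exact Subgroup.mem_centralizer_iff.1 hk2
  have : Fact q.Prime := ⟨hq⟩
  have hord : orderOf x = q := orderOf_eq_prime hxq hx1
  have hzS : ∀ t ∈ Subgroup.zpowers x, t ≠ 1 → ∀ s ∈ S, s * t = t * s → s = 1 := by
    intro t ht ht1
    rcases hdich t (hzN ht) with h | h
    · exact absurd (hD t (hzN ht) (hzH ht) h) ht1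
    · exact h
  obtain ⟨p, hp, hexp⟩ := isMinNormal_exponent_of_comm hS hab
  -- build the Frobenius structure in `N`
  let xN : N := ⟨x, hxN⟩
  have hxN1 : xN ≠ 1 := fun h => hx1 (congrArg Subtype.val h)
  let Q : Subgroup N := Subgroup.zpowers xN
  let K : Subgroup N := S.subgroupOf N
  have hKn : K.Normal := hSn.subgroupOf N
  have hQmem : ∀ a : N, a ∈ Q ↔ (a : G) ∈ Subgroup.zpowers x := by
    intro a
    constructor
    · rintro ⟨i, rfl⟩
      exact ⟨i, by simp [xN]⟩
    · rintro ⟨i, hi⟩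
      exact ⟨i, Subtype.ext (by simpa [xN] using hi)⟩
  have hKmem : ∀ a : N, a ∈ K ↔ (a : G) ∈ S := fun a => Subgroup.mem_subgroupOf
  have hc : Subgroup.IsComplement' K Q := by
    apply Subgroup.isComplement'_of_disjoint_and_mul_eq_univ
    · rw [Subgroup.disjoint_def]
      intro a ha1 ha2
      exact Subtype.ext (hSHd _ ((hKmem a).1 ha1) (hzH ((hQmem a).1 ha2)))
    · rw [Set.eq_univ_iff_forall]
      intro n
      obtain ⟨s, hs, m, hmN, hmH, hsm⟩ := hdecN n n.2
      refine Set.mem_mul.2 ⟨⟨s, hSN hs⟩, (hKmem _).2 hs, ⟨m, hmN⟩, (hQmem _).2 (hMz m hmN hmH), ?_⟩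
      exact Subtype.ext hsm
  have hKb : K ≠ ⊥ := by
    intro h
    have : (⟨s₀, hSN hs₀⟩ : N) ∈ K := (hKmem _).2 hs₀
    rw [h, Subgroup.mem_bot] at this
    exact hs₀1 (congrArg Subtype.val this)
  have hQb : Q ≠ ⊥ := by
    intro h
    have : xN ∈ Q := Subgroup.mem_zpowers xN
    rw [h, Subgroup.mem_bot] at this
    exact hxN1 this
  have hF : IsFrobeniusComplement Q := by
    rw [isFrobeniusComplement_iff_of_isComplement' K hc hKb hQb]
    intro h hh hh1
    rw [eq_bot_iff]
    rintro a ⟨ha1, ha2⟩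
    have hh1' : (h : G) ≠ 1 := fun h0 => hh1 (Subtype.ext h0)
    have h3 := hzS _ ((hQmem h).1 hh) hh1' _ ((hKmem a).1 ha1) (by
      have h4 := Subgroup.mem_centralizer_singleton_iff.1 ha2
      exact congrArg Subtype.val h4)
    rw [Subgroup.mem_bot]
    exact Subtype.ext h3
  refine ⟨Q, K, p, hp, hF, ?_, hKn, frobeniusKernel_eq_of_isComplement' hF hc, ?_, ?_⟩
  · rw [Nat.card_zpowers]
    have : orderOf xN = orderOf x := Subgroup.orderOf_mk x hxN
    rw [this, hord]
    exact hq
  · exact ⟨⟨fun a b => Subtype.ext (Subtype.ext (hab _ ((hKmem _).1 a.2) _ ((hKmem _).1 b.2)))⟩⟩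
  · intro a ha
    exact Subtype.ext (by simpa using hexp _ ((hKmem _).1 ha))

/-- **Centerless theorem.** -/
theorem frobProp [Finite G] {N : Subgroup G} [hNn : N.Normal] (hN1 : N ≠ ⊥)
    (hZ : ∀ r ∈ N, (∀ n ∈ N, r * n = n * r) → r = 1)
    (hC : ∀ r ∈ N, r ≠ 1 → IsCoatom (Y r)) : FrobProp N := by
  obtain ⟨S, hS, hSN⟩ := exists_isMinNormal_le N hNn hN1
  exact frobProp_of_comm hS hSN (comm_of_isMinNormal hS hSN hC) hZ hC

end Cfsg.Agent.Lib.MaxCent.Centerless
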