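import Cfsg.Agent.Lib.Frobenius.Normal
import Mathlib.GroupTheory.Sylow
import Mathlib.GroupTheory.SpecificGroups.Cyclic

/-!
# Perfect groups whose centralizers are self-normalizing and maximal among centralizers

Such a nontrivial centerless group does not exist.
-/

set_option autoImplicit false
set_option linter.style.haveILetI false
set_option linter.unusedSectionVars false

namespace Cfsg.Agent.Lib.MaxCent.Perfect

open Cfsg Cfsg.Agent.Lib.Frobenius.Basic Cfsg.Agent.Lib.Frobenius.Theorem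
open scoped Pointwise

variable {Γ : Type*} [Group Γ]

/-- Centralizer of one element. -/
abbrev Y (r : Γ) : Subgroup Γ := Subgroup.centralizer ({r} : Set Γ)

theorem mem_Y {r g : Γ} : g ∈ Y r ↔ g * r = r * g := Subgroup.mem_centralizer_singleton_iff

theorem self_mem_Y (r : Γ) : r ∈ Y r := mem_Y.2 rfl

theorem Y_le_Y_pow (r : Γ) (n : ℕ) : Y r ≤ Y (r ^ n) := by
  intro g hg
  rw [mem_Y] at hg ⊢
  exact (Commute.pow_right hg n)

theorem exists_pow_prime_orderOf [Finite Γ] (r : Γ) (hr : r ≠ 1) :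
    ∃ n : ℕ, (orderOf (r ^ n)).Prime := by
  have hpos : 0 < orderOf r := orderOf_pos r
  have h1 : orderOf r ≠ 1 := by simpa [orderOf_eq_one_iff] using hr
  refine ⟨orderOf r / (orderOf r).minFac, ?_⟩
  have hd : (orderOf r).minFac ∣ orderOf r := Nat.minFac_dvd _
  rw [orderOf_pow_orderOf_div hpos.ne' hd]
  exact Nat.minFac_prime h1

/-- `a` is a power of `a * b` when `a`, `b` commute of coprime orders. -/
theorem exists_pow_eq_left {a b : Γ} (hab : a * b = b * a)
    (hpq : Nat.Coprime (orderOf b) (orderOf a)) :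
    ∃ n : ℕ, (a * b) ^ n = a := by
  obtain ⟨m, hm⟩ := exists_pow_eq_self_of_coprime hpq
  refine ⟨orderOf b * m, ?_⟩
  have hc : Commute a b := hab
  rw [pow_mul, hc.mul_pow, pow_orderOf_eq_one, mul_one, hm]

/-- Self-normalizing `p`-subgroups are Sylow. -/
theorem not_dvd_index_of_selfNormalizing [Finite Γ] {p : ℕ} [hp : Fact p.Prime] {H : Subgroup Γ}
    (hH : IsPGroup p H) (hN : Subgroup.normalizer (H : Set Γ) = H) : ¬ p ∣ H.index := by
  obtain ⟨n, hn⟩ := IsPGroup.iff_card.1 hH
  have h := Sylow.card_quotient_normalizer_modEq_card_quotient hn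
  have h1 : H.comap (Subgroup.normalizer (H : Set Γ)).subtype = ⊤ := by
    rw [eq_top_iff]
    intro x _
    exact hN.le x.2
  have h2 : Nat.card (Subgroup.normalizer (H : Set Γ) ⧸ H.comap (Subgroup.normalizer (H : Set Γ)).subtype) = 1 := by
    rw [← Subgroup.index_eq_card, Subgroup.index_eq_one]
    exact h1
  rw [h2, ← Subgroup.index_eq_card] at h
  intro hd
  have h3 : 1 % p = 0 := by
    have := h
    unfold Nat.ModEq at this
    rw [this]
    exact Nat.mod_eq_zero_of_dvd hd
  have hp2 := (Fact.out : p.Prime).two_le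
  rw [Nat.mod_eq_of_lt (by omega)] at h3
  omega

section Main

variable (hP : ∀ (r : Γ) (n : ℕ), r ≠ 1 → r ^ n ≠ 1 → Y r = Y (r ^ n))

include hP

/-- Commuting elements of distinct prime orders have the same centralizer. -/
theorem Y_eq_of_commute {a b : Γ} (hab : a * b = b * a) (ha : (orderOf a).Prime)
    (hb : (orderOf b).Prime) (hne : orderOf a ≠ orderOf b) : Y a = Y b := by
  have ha1 : a ≠ 1 := by
    rintro rfl
    simp at ha
    exact Nat.not_prime_one ha
  have hb1 : b ≠ 1 := by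
    rintro rfl
    simp at hb
    exact Nat.not_prime_one hb
  have hc : Nat.Coprime (orderOf a) (orderOf b) := (Nat.coprime_primes ha hb).2 hne
  have hc1 : a * b ≠ 1 := by
    intro h
    have : b = a⁻¹ := by
      rw [eq_inv_iff_mul_eq_one, ← hab]; exact h
    rw [this, orderOf_inv] at hne
    exact hne rfl
  obtain ⟨n, hn⟩ := exists_pow_eq_left hab hc.symm
  obtain ⟨m, hm⟩ := exists_pow_eq_left (a := b) (b := a) hab.symm hc
  rw [← hab] at hm
  have h1 : Y (a * b) = Y a := by
    conv_rhs => rw [← hn]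
    exact hP _ _ hc1 (by rw [hn]; exact ha1)
  have h2 : Y (a * b) = Y b := by
    conv_rhs => rw [← hm]
    exact hP _ _ hc1 (by rw [hm]; exact hb1)
  rw [← h1, ← h2]

/-- Dichotomy: centralizers are abelian or `p`-groups. -/
theorem abelian_or_pGroup [Finite Γ] (r : Γ) (hr : r ≠ 1) :
    (∀ a ∈ Y r, ∀ b ∈ Y r, a * b = b * a) ∨ ∃ p : ℕ, p.Prime ∧ IsPGroup p (Y r) := by
  obtain ⟨n, hn⟩ := exists_pow_prime_orderOf r hr
  set r₀ := r ^ n with hr₀
  have hr₀1 : r₀ ≠ 1 := by
    intro h
    rw [h] at hn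
    simp at hn
    exact Nat.not_prime_one hn
  have hYr : Y r = Y r₀ := hP r n hr hr₀1
  set p := orderOf r₀ with hp
  by_cases hpg : IsPGroup p (Y r)
  · exact Or.inr ⟨p, hn, hpg⟩
  left
  -- an element of prime order `q ≠ p`
  have : Fact p.Prime := ⟨hn⟩
  have hex : ∃ q : ℕ, q.Prime ∧ q ∣ Nat.card (Y r) ∧ q ≠ p := by
    by_contra hcon
    push Not at hcon
    apply hpg
    rw [IsPGroup.iff_card]
    exact ⟨_, Nat.eq_prime_pow_of_unique_prime_dvd Nat.card_pos.ne' (fun {d} hd hd2 => hcon d hd hd2)⟩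
  obtain ⟨q, hq, hqd, hqp⟩ := hex
  have : Fact q.Prime := ⟨hq⟩
  obtain ⟨u', hu'⟩ := exists_prime_orderOf_dvd_card' q hqd
  set u : Γ := (u' : Γ) with hu
  have huo : orderOf u = q := by
    rw [hu, Subgroup.orderOf_coe, hu']
  have huY : u ∈ Y r := u'.2
  have hur₀ : u ∈ Y r₀ := hYr ▸ huY
  have hYu : Y u = Y r := by
    rw [hYr]
    apply Y_eq_of_commute hP (mem_Y.1 hur₀) (by rw [huo]; exact hq) hn
    rw [huo]
    exact hqp
  -- every nontrivial `a ∈ Y r` has `Y a = Y r`
  have key : ∀ a ∈ Y r, a ≠ 1 → Y a = Y r := by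
    intro a ha ha1
    obtain ⟨k, hk⟩ := exists_pow_prime_orderOf a ha1
    have ha₀1 : a ^ k ≠ 1 := by
      intro h
      rw [h] at hk
      simp at hk
      exact Nat.not_prime_one hk
    have hYa : Y a = Y (a ^ k) := hP a k ha1 ha₀1
    have ha₀Y : a ^ k ∈ Y r := (Y r).pow_mem ha k
    rw [hYa]
    by_cases hl : orderOf (a ^ k) = p
    · -- commute with `u`
      have h1 : a ^ k ∈ Y u := hYu ▸ ha₀Y
      rw [← hYu]
      apply Y_eq_of_commute hP (mem_Y.1 h1) hk (by rw [huo]; exact hq)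
      rw [huo, hl]
      exact hqp.symm
    · have h1 : a ^ k ∈ Y r₀ := hYr ▸ ha₀Y
      rw [hYr]
      exact Y_eq_of_commute hP (mem_Y.1 h1) hk hn hl
  intro a ha b hb
  by_cases ha1 : a = 1
  · simp [ha1]
  have : b ∈ Y a := by rw [key a ha ha1]; exact hb
  exact (mem_Y.1 this).symm

end Main

/-- The abelian case: a self-normalizing abelian centralizer gives a Frobenius complement. -/
theorem false_of_abelian [Finite Γ]
    (hperf : commutator Γ = ⊤)
    (hcenter : ∀ z : Γ, (∀ g : Γ, g * z = z * g) → z = 1)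
    (hN : ∀ r : Γ, r ≠ 1 → Subgroup.normalizer (Y r : Set Γ) = Y r)
    (hP : ∀ (r : Γ) (n : ℕ), r ≠ 1 → r ^ n ≠ 1 → Y r = Y (r ^ n))
    (r : Γ) (hr : r ≠ 1) (hab : ∀ a ∈ Y r, ∀ b ∈ Y r, a * b = b * a) : False := by
  have hY : ∀ u ∈ Y r, u ≠ 1 → Y u = Y r := by
    intro u hu hu1
    have hle : Y r ≤ Y u := fun g hg => mem_Y.2 (hab g hg u hu)
    rcases abelian_or_pGroup hP u hu1 with hab' | ⟨p, hp, hpg⟩
    · apply le_antisymm _ hle
      intro g hg
      rw [← hN r hr, Subgroup.mem_set_normalizer_iff]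
      intro h
      constructor
      · intro hh
        have : g * h * g⁻¹ = h := by
          rw [hab' g hg h (hle hh)]
          group
        rw [SetLike.mem_coe] at hh ⊢
        rw [this]
        exact hh
      · intro hh
        rw [SetLike.mem_coe] at hh ⊢
        have h2 : g⁻¹ * (g * h * g⁻¹) * g = h := by group
        rw [← h2, mul_assoc, hab' _ (hle hh) g hg, ← mul_assoc]
        simpa using hh
    · have : Fact p.Prime := ⟨hp⟩
      have hpg' : IsPGroup p (Y r) := hpg.to_le hle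
      have hnd := not_dvd_index_of_selfNormalizing hpg' (hN r hr)
      exact (hpg'.toSylow hnd).is_maximal' hpg hle
  have hbot : Y r ≠ ⊥ := by
    intro h
    have := self_mem_Y r
    rw [h, Subgroup.mem_bot] at this
    exact hr this
  have htop : Y r ≠ ⊤ := by
    intro h
    apply hr
    apply hcenter
    intro g
    have : g ∈ Y r := by rw [h]; trivial
    exact mem_Y.1 this
  have hF : IsFrobeniusComplement (Y r) := by
    apply isFrobeniusComplement_of hbot htop
    intro g hg x hx hgx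
    by_contra hx1
    apply hg
    have hgx1 : g⁻¹ * x * g ≠ 1 := by
      intro h
      apply hx1
      have : x = g * (g⁻¹ * x * g) * g⁻¹ := by group
      rw [this, h]
      group
    have h1 := hY x hx hx1
    have h2 := hY _ hgx hgx1
    rw [← hN r hr, Subgroup.mem_set_normalizer_iff'']
    intro y
    conv_lhs => rw [SetLike.mem_coe, ← h1, mem_Y]
    conv_rhs => rw [SetLike.mem_coe, ← h2, mem_Y]
    constructor
    · intro h
      calc g⁻¹ * y * g * (g⁻¹ * x * g) = g⁻¹ * (y * x) * g := by group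
        _ = g⁻¹ * (x * y) * g := by rw [h]
        _ = g⁻¹ * x * g * (g⁻¹ * y * g) := by group
    · intro h
      have h3 : g⁻¹ * (y * x) * g = g⁻¹ * (x * y) * g := by
        calc g⁻¹ * (y * x) * g = g⁻¹ * y * g * (g⁻¹ * x * g) := by group
          _ = g⁻¹ * x * g * (g⁻¹ * y * g) := h
          _ = g⁻¹ * (x * y) * g := by group
      simpa using h3
  have hc := kernel_isComplement' hF
  have hK : kernel (Y r) ≠ ⊤ := by
    intro h
    have hd := hc.disjoint
    rw [h, top_disjoint] at hd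
    exact hbot hd
  apply hK
  rw [eq_top_iff, ← hperf]
  have e := hc.symm.QuotientMulEquiv
  have hcomm : IsMulCommutative (Γ ⧸ kernel (Y r)) := ⟨⟨fun a b => by
    apply e.injective
    rw [map_mul, map_mul]
    apply Subtype.ext
    exact hab _ (e a).2 _ (e b).2⟩⟩
  exact Subgroup.Normal.quotient_commutative_iff_commutator_le.1 hcomm

/-- Counting: central elements of a nonabelian `p`-group. -/
theorem card_mul_sq_le [Finite Γ] {p : ℕ} [hp : Fact p.Prime] {P : Subgroup Γ}
    (hP : IsPGroup p P) (hab : ¬ ∀ a ∈ P, ∀ b ∈ P, a * b = b * a)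
    (S : Finset Γ) (hS : ∀ x ∈ S, x ∈ P ∧ ∀ y ∈ P, x * y = y * x) :
    S.card * p ^ 2 ≤ Nat.card P := by
  classical
  have hZ : S.card ≤ Nat.card (Subgroup.center P) := by
    let f : S → Subgroup.center P := fun x => ⟨⟨x.1, (hS x.1 x.2).1⟩, by
      rw [Subgroup.mem_center_iff]
      intro g
      apply Subtype.ext
      exact ((hS x.1 x.2).2 g.1 g.2).symm⟩
    have hf : Function.Injective f := by
      intro a b hab
      have := congrArg (fun z : Subgroup.center P => ((z : P) : Γ)) hab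
      exact Subtype.ext this
    have := Nat.card_le_card_of_injective f hf
    simpa using this
  have hidx : p ^ 2 ∣ (Subgroup.center P).index := by
    obtain ⟨n, hn⟩ := hP.index (Subgroup.center P)
    rw [hn]
    apply pow_dvd_pow
    by_contra hlt
    push Not at hlt
    have hc : ∀ a b : P, a * b = b * a := by
      have hcases : n = 0 ∨ n = 1 := by omega
      rcases hcases with rfl | rfl
      · rw [pow_zero, Subgroup.index_eq_one] at hn
        intro a b
        have : a ∈ Subgroup.center P := by rw [hn]; trivial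
        exact ((Subgroup.mem_center_iff.1 this) b).symm
      · rw [pow_one] at hn
        have hcard : Nat.card (P ⧸ Subgroup.center P) = p := by
          rw [← Subgroup.index_eq_card, hn]
        have : IsCyclic (P ⧸ Subgroup.center P) :=
          isCyclic_of_prime_card hcard
        have hcomm := (QuotientGroup.mk' (Subgroup.center P)).isMulCommutative_of_isCyclic_of_ker_le_center
          (by rw [QuotientGroup.ker_mk'])
        exact hcomm.is_comm.comm
    apply hab
    intro a ha b hb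
    exact congrArg Subtype.val (hc ⟨a, ha⟩ ⟨b, hb⟩)
  calc S.card * p ^ 2 ≤ Nat.card (Subgroup.center P) * (Subgroup.center P).index := by
        exact Nat.mul_le_mul hZ (Nat.le_of_dvd (Nat.pos_of_ne_zero Subgroup.index_ne_zero_of_finite) hidx)
    _ = Nat.card P := Subgroup.card_mul_index _

theorem sum_Icc_inv_sq_le (M : ℕ) (hM : 2 ≤ M) :
    ∑ n ∈ Finset.Icc 2 M, (1 : ℚ) / (n : ℚ) ^ 2 ≤ 3 / 4 - 1 / M := by
  induction M, hM using Nat.le_induction with
  | base => norm_num
  | succ M hM ih =>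
    rw [Finset.sum_Icc_succ_top (by omega)]
    have hMpos : (0 : ℚ) < M := by exact_mod_cast (by omega : 0 < M)
    have key : (1 : ℚ) / ((M + 1 : ℕ) : ℚ) ^ 2 ≤ 1 / M - 1 / ((M + 1 : ℕ) : ℚ) := by
      push_cast
      rw [div_sub_div _ _ hMpos.ne' (by positivity), div_le_div_iff₀ (by positivity) (by positivity)]
      nlinarith
    linarith

theorem sum_inv_sq_le (s : Finset ℕ) (hs : ∀ n ∈ s, 2 ≤ n) :
    ∑ n ∈ s, (1 : ℚ) / (n : ℚ) ^ 2 ≤ 3 / 4 := by
  set M := max (s.sup id) 2 with hM
  have hsub : s ⊆ Finset.Icc 2 M := by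
    intro n hn
    rw [Finset.mem_Icc]
    refine ⟨hs n hn, le_trans ?_ (le_max_left _ _)⟩
    exact Finset.le_sup (f := id) hn
  have h1 := Finset.sum_le_sum_of_subset_of_nonneg (f := fun n : ℕ => (1 : ℚ) / (n : ℚ) ^ 2) hsub
    (fun _ _ _ => by positivity)
  have h2 := sum_Icc_inv_sq_le M (le_max_right _ _)
  have h3 : (0 : ℚ) ≤ 1 / M := by positivity
  linarith

/-- The main non-existence theorem. -/
theorem false_of_perfect [Finite Γ] [Nontrivial Γ]
    (hperf : commutator Γ = ⊤)
    (hcenter : ∀ z : Γ, (∀ g : Γ, g * z = z * g) → z = 1)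
    (hN : ∀ r : Γ, r ≠ 1 → Subgroup.normalizer (Y r : Set Γ) = Y r)
    (hP : ∀ (r : Γ) (n : ℕ), r ≠ 1 → r ^ n ≠ 1 → Y r = Y (r ^ n)) : False := by
  classical
  have := Fintype.ofFinite Γ
  have h1 : ∀ r : Γ, r ≠ 1 → ∃ p : ℕ, p.Prime ∧ IsPGroup p (Y r) ∧
      ¬ ∀ a ∈ Y r, ∀ b ∈ Y r, a * b = b * a := by
    intro r hr
    rcases abelian_or_pGroup hP r hr with hab | ⟨p, hp, hpg⟩
    · exact (false_of_abelian hperf hcenter hN hP r hr hab).elim
    · exact ⟨p, hp, hpg, fun hab => false_of_abelian hperf hcenter hN hP r hr hab⟩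
  -- the counting sets
  let A : ℕ → Finset Γ := fun p => Finset.univ.filter (fun r => r ≠ 1 ∧ IsPGroup p (Y r))
  have hbound : ∀ p : ℕ, p.Prime → (A p).card * p ^ 2 ≤ Nat.card Γ := by
    intro p hp
    have : Fact p.Prime := ⟨hp⟩
    rcases (A p).eq_empty_or_nonempty with hemp | ⟨r₁, hr₁⟩
    · rw [hemp]; simp
    have hmem : ∀ {x : Γ}, x ∈ A p ↔ x ≠ 1 ∧ IsPGroup p (Y x) := by
      intro x
      simp [A]
    have hnab : ∀ x ∈ A p, ¬ ∀ a ∈ Y x, ∀ b ∈ Y x, a * b = b * a := by
      intro x hx hab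
      exact false_of_abelian hperf hcenter hN hP x (hmem.1 hx).1 hab
    have hnd : ∀ x ∈ A p, ¬ p ∣ (Y x).index := fun x hx =>
      not_dvd_index_of_selfNormalizing (hmem.1 hx).2 (hN x (hmem.1 hx).1)
    let P₁ : Sylow p Γ := (hmem.1 hr₁).2.toSylow (hnd r₁ hr₁)
    have hP₁ : (P₁ : Subgroup Γ) = Y r₁ := rfl
    have hcardSyl : Nat.card (Sylow p Γ) = (Y r₁).index := by
      rw [Sylow.card_eq_index_normalizer P₁]
      show (Subgroup.normalizer (Y r₁ : Set Γ)).index = _
      rw [hN r₁ (hmem.1 hr₁).1]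
    have hsylcard : ∀ x ∈ A p, Nat.card (Y x) = Nat.card (Y r₁) := by
      intro x hx
      let Q : Sylow p Γ := (hmem.1 hx).2.toSylow (hnd x hx)
      exact Nat.card_congr (Sylow.equiv Q P₁).toEquiv
    have : Fintype (Sylow p Γ) := Fintype.ofFinite _
    have himage : ((A p).image Y).card ≤ Nat.card (Sylow p Γ) := by
      rw [Nat.card_eq_fintype_card]
      have hsub : (A p).image Y ⊆ Finset.univ.image (fun Q : Sylow p Γ => (Q : Subgroup Γ)) := by
        intro a ha
        obtain ⟨x, hx, rfl⟩ := Finset.mem_image.1 ha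
        exact Finset.mem_image.2 ⟨(hmem.1 hx).2.toSylow (hnd x hx), Finset.mem_univ _, rfl⟩
      exact (Finset.card_le_card hsub).trans Finset.card_image_le
    have hfib : ∀ a ∈ (A p).image Y, ((A p).filter (fun x => Y x = a)).card ≤
        Nat.card (Y r₁) / p ^ 2 := by
      intro a ha
      obtain ⟨x, hx, rfl⟩ := Finset.mem_image.1 ha
      rw [Nat.le_div_iff_mul_le (by have := hp.pos; positivity)]
      rw [← hsylcard x hx]
      apply card_mul_sq_le (hmem.1 hx).2 (hnab x hx)
      intro y hy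
      rw [Finset.mem_filter] at hy
      constructor
      · rw [← hy.2]; exact self_mem_Y y
      · intro z hz
        rw [← hy.2] at hz
        exact (mem_Y.1 hz).symm
    have hle := Finset.card_le_mul_card_image (A p) _ hfib
    calc (A p).card * p ^ 2 ≤ (Nat.card (Y r₁) / p ^ 2 * (Y r₁).index) * p ^ 2 := by
          apply Nat.mul_le_mul_right
          refine hle.trans (Nat.mul_le_mul_left _ ?_)
          rw [← hcardSyl]
          exact himage
      _ = (Nat.card (Y r₁) / p ^ 2 * p ^ 2) * (Y r₁).index := by ring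
      _ ≤ Nat.card (Y r₁) * (Y r₁).index := Nat.mul_le_mul_right _ (Nat.div_mul_le_self _ _)
      _ = Nat.card Γ := Subgroup.card_mul_index _
  -- cover
  have hcover : (Finset.univ.erase (1 : Γ)) ⊆ (Nat.card Γ).primeFactors.biUnion A := by
    intro r hr
    have hr1 : r ≠ 1 := (Finset.mem_erase.1 hr).1
    obtain ⟨p, hp, hpg, -⟩ := h1 r hr1
    have : Fact p.Prime := ⟨hp⟩
    rw [Finset.mem_biUnion]
    refine ⟨p, ?_, by simp [A, hr1, hpg]⟩
    rw [Nat.mem_primeFactors]
    refine ⟨hp, ?_, Nat.card_pos.ne'⟩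
    obtain ⟨n, hn⟩ := IsPGroup.iff_card.1 hpg
    have hne : n ≠ 0 := by
      rintro rfl
      rw [pow_zero, Subgroup.card_eq_one] at hn
      have := self_mem_Y r
      rw [hn, Subgroup.mem_bot] at this
      exact hr1 this
    calc p ∣ p ^ n := dvd_pow_self _ hne
      _ = Nat.card (Y r) := hn.symm
      _ ∣ Nat.card Γ := Subgroup.card_subgroup_dvd_card _
  have hcard1 : Nat.card Γ - 1 ≤ ∑ p ∈ (Nat.card Γ).primeFactors, (A p).card := by
    have h2 := (Finset.card_le_card hcover).trans Finset.card_biUnion_le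
    rw [Finset.card_erase_of_mem (Finset.mem_univ _), Finset.card_univ, ← Nat.card_eq_fintype_card] at h2
    exact h2
  have hq : ((Nat.card Γ : ℚ) - 1) ≤ (Nat.card Γ : ℚ) * (3 / 4) := by
    have hpos : 1 ≤ Nat.card Γ := Nat.card_pos
    have h3 : ((Nat.card Γ : ℚ) - 1) ≤ ∑ p ∈ (Nat.card Γ).primeFactors, ((A p).card : ℚ) := by
      have : ((Nat.card Γ - 1 : ℕ) : ℚ) ≤ ((∑ p ∈ (Nat.card Γ).primeFactors, (A p).card : ℕ) : ℚ) := by
        exact_mod_cast hcard1
      rw [Nat.cast_sub hpos] at this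
      simpa using this
    have h4 : ∑ p ∈ (Nat.card Γ).primeFactors, ((A p).card : ℚ) ≤
        ∑ p ∈ (Nat.card Γ).primeFactors, (Nat.card Γ : ℚ) * (1 / (p : ℚ) ^ 2) := by
      apply Finset.sum_le_sum
      intro p hp
      have hpp := Nat.prime_of_mem_primeFactors hp
      have := hbound p hpp
      have hppos : (0 : ℚ) < (p : ℚ) ^ 2 := by
        have := hpp.pos
        positivity
      rw [mul_one_div, le_div_iff₀ hppos]
      exact_mod_cast this
    rw [← Finset.mul_sum] at h4
    have h5 := sum_inv_sq_le (Nat.card Γ).primeFactors (fun n hn => (Nat.prime_of_mem_primeFactors hn).two_le)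
    have h6 : (0 : ℚ) ≤ Nat.card Γ := by positivity
    nlinarith
  have hle4 : Nat.card Γ ≤ 4 := by
    have : (Nat.card Γ : ℚ) ≤ 4 := by linarith
    exact_mod_cast this
  -- but the group is big
  obtain ⟨r, hr⟩ := exists_ne (1 : Γ)
  obtain ⟨p, hp, hpg, hnab⟩ := h1 r hr
  have : Fact p.Prime := ⟨hp⟩
  have h8 := card_mul_sq_le hpg hnab {1, r} (by
    intro x hx
    rw [Finset.mem_insert, Finset.mem_singleton] at hx
    rcases hx with rfl | rfl
    · exact ⟨one_mem _, fun y _ => by simp⟩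
    · exact ⟨self_mem_Y _, fun y hy => (mem_Y.1 hy).symm⟩)
  rw [Finset.card_pair hr.symm] at h8
  have h9 : Nat.card (Y r) ≤ Nat.card Γ := Subgroup.card_le_card_group _
  have h10 : 4 ≤ p ^ 2 := by nlinarith [hp.two_le]
  omega

end Cfsg.Agent.Lib.MaxCent.Perfect
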